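import Cfsg.Agent.BlockNilp.Degrees
import Cfsg.Agent.OddChar.Twist
import Cfsg.Agent.Transfer.Tate
import Cfsg.Agent.GlauberCorr.HomMult
import Cfsg.Agent.PGroup.Frattini

/-!
For every linear character of a Sylow 2-subgroup with values `±1` the principal 2-block has an odd
degree character fixed by the cubing twist containing it with odd multiplicity.
-/

set_option autoImplicit false
set_option maxHeartbeats 800000
set_option linter.style.haveILetI false

open scoped ComplexConjugate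

namespace Cfsg.Agent.SigmaBlock

open Cfsg Cfsg.Agent.Char Cfsg.Agent.GlauberCorr

universe u

variable {G : Type u} [Group G] [Finite G] {M : Ideal AlgInt}

theorem coprime_card {k : ℕ} (h₁ : ∀ g : G, (∃ j : ℕ, orderOf g = 2 ^ j) → g ^ k = g ^ 3)
    (h₂ : ∀ g : G, Odd (orderOf g) → g ^ k = g) : k.Coprime (Nat.card G) := by
  refine Nat.coprime_of_dvd fun q hq hqk hqG => ?_
  haveI := Fact.mk hq
  obtain ⟨g, hg⟩ := exists_prime_orderOf_dvd_card' (G := G) q hqG
  have h1 : g ^ k = 1 := orderOf_dvd_iff_pow_eq_one.mp (hg ▸ hqk)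
  rcases hq.eq_two_or_odd' with rfl | hodd
  · rw [h₁ g ⟨1, by rw [hg, pow_one]⟩, ← orderOf_dvd_iff_pow_eq_one, hg] at h1
    norm_num at h1
  · rw [h₂ g (hg ▸ hodd)] at h1
    rw [h1, orderOf_one] at hg
    exact hq.one_lt.ne hg

theorem two_dvd_succ_three_pow (a : ℕ) : 2 ^ a ∣ 3 ^ 2 ^ a - 1 := by
  rcases Nat.eq_zero_or_pos a with rfl | ha
  · simp
  have h : Nat.Coprime 3 (2 ^ a) := Nat.Coprime.pow_right a (by norm_num)
  have h1 := (Nat.modEq_iff_dvd' (one_le_pow₀ (by norm_num))).mp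
    (Nat.ModEq.pow_totient h).symm
  rw [Nat.totient_prime_pow Nat.prime_two ha] at h1
  refine h1.trans ?_
  have : 2 ^ a = 2 ^ (a - 1) * (2 - 1) * 2 := by
    obtain ⟨b, rfl⟩ := Nat.exists_eq_succ_of_ne_zero ha.ne'
    simp [pow_succ]
  conv_rhs => rw [this, pow_mul]
  simpa using Nat.sub_dvd_pow_sub_pow _ 1 2

/-- The twist by a power fixing odd order elements and cubing 2-elements has 2-power order. -/
theorem iterate_pow_eq {k : ℕ} (h₁ : ∀ g : G, (∃ j : ℕ, orderOf g = 2 ^ j) → g ^ k = g ^ 3)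
    (h₂ : ∀ g : G, Odd (orderOf g) → g ^ k = g) (g : G) :
    g ^ k ^ 2 ^ (Nat.card G).factorization 2 = g := by
  set a := (Nat.card G).factorization 2 with ha
  set b := (Nat.card G) / 2 ^ a with hb
  have hab : 2 ^ a * b = Nat.card G := by rw [hb, ha]; exact Nat.ordProj_mul_ordCompl_eq_self _ 2
  have hbodd : ¬ 2 ∣ b := by rw [hb, ha]; exact Nat.not_dvd_ordCompl Nat.prime_two Nat.card_pos.ne'
  have hcop : Nat.Coprime (2 ^ a) b :=
    (Nat.prime_two.coprime_iff_not_dvd.mpr hbodd).pow_left a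
  obtain ⟨s, hs⟩ := Nat.chineseRemainder hcop 1 0
  have hstep : ∀ (x : G) (c : ℕ), (∀ y ∈ Subgroup.zpowers x, y ^ k = y ^ c) → ∀ m : ℕ,
      x ^ k ^ m = x ^ c ^ m := by
    intro x c hc m
    induction m with
    | zero => simp
    | succ m ih =>
      rw [pow_succ, pow_mul, ih, pow_succ, pow_mul]
      exact hc _ (Subgroup.pow_mem _ (Subgroup.mem_zpowers x) _)
  -- the 2-part and the odd part
  have h2 : ∀ y ∈ Subgroup.zpowers (g ^ b), y ^ k = y ^ 3 := fun y hy => h₁ y (by
    have hy1 : (g ^ b) ^ 2 ^ a = 1 := by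
      rw [← pow_mul, mul_comm, hab, pow_card_eq_one']
    obtain ⟨j, -, hj⟩ := (Nat.dvd_prime_pow Nat.prime_two).mp
      ((orderOf_dvd_of_mem_zpowers hy).trans (orderOf_dvd_of_pow_eq_one hy1))
    exact ⟨j, hj⟩)
  have h2' : ∀ y ∈ Subgroup.zpowers (g ^ 2 ^ a), y ^ k = y ^ 1 := fun y hy => by
    rw [pow_one]
    refine h₂ y (Nat.odd_iff.mpr (Nat.two_dvd_ne_zero.mp fun h2 => hbodd ?_))
    exact h2.trans ((orderOf_dvd_of_mem_zpowers hy).trans (orderOf_dvd_of_pow_eq_one (by
      rw [← pow_mul, hab, pow_card_eq_one'])))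
  have e1 : (g ^ b) ^ k ^ 2 ^ a = g ^ b := by
    rw [hstep _ 3 h2]
    obtain ⟨c, hc⟩ := two_dvd_succ_three_pow a
    have hpos : 1 ≤ 3 ^ 2 ^ a := one_le_pow₀ (by norm_num)
    rw [show 3 ^ 2 ^ a = 2 ^ a * c + 1 by omega, pow_succ, pow_mul, ← pow_mul g b, mul_comm b,
      hab, pow_card_eq_one', one_pow, one_mul]
  have e2 : (g ^ 2 ^ a) ^ k ^ 2 ^ a = g ^ 2 ^ a := by
    rw [hstep _ 1 h2', one_pow, pow_one]
  -- recombine
  have hb1 := Nat.gcd_eq_gcd_ab (2 ^ a) b
  rw [hcop.gcd_eq_one] at hb1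
  have hg : g = (g ^ 2 ^ a) ^ Nat.gcdA (2 ^ a) b * (g ^ b) ^ Nat.gcdB (2 ^ a) b := by
    rw [← zpow_natCast, ← zpow_natCast, ← zpow_mul, ← zpow_mul, ← zpow_add]
    have h1 : ((2 : ℕ) ^ a : ℕ) * Nat.gcdA (2 ^ a) b + (b : ℤ) * Nat.gcdB (2 ^ a) b = 1 :=
      hb1.symm
    rw [h1, zpow_one]
  calc g ^ k ^ 2 ^ a
      = ((g ^ 2 ^ a) ^ Nat.gcdA (2 ^ a) b * (g ^ b) ^ Nat.gcdB (2 ^ a) b) ^ k ^ 2 ^ a := by
        rw [← hg]
    _ = ((g ^ 2 ^ a) ^ k ^ 2 ^ a) ^ Nat.gcdA (2 ^ a) b *
          ((g ^ b) ^ k ^ 2 ^ a) ^ Nat.gcdB (2 ^ a) b := by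
        rw [Commute.mul_pow (((Commute.refl g).pow_pow _ _).zpow_zpow _ _)]
        simp only [← zpow_natCast, ← zpow_mul]
        ring_nf
    _ = g := by rw [e1, e2, ← hg]

theorem exists_fixed_over (hM : IsPModular 2 M) (P : Sylow 2 G) {k : ℕ}
    (h₁ : ∀ g : G, (∃ j : ℕ, orderOf g = 2 ^ j) → g ^ k = g ^ 3)
    (h₂ : ∀ g : G, Odd (orderOf g) → g ^ k = g)
    (lam : IrrCharacter ↥(P : Subgroup G)) (hlam1 : (lam : ↥(P : Subgroup G) → ℂ) 1 = 1)
    (hlam3 : ∀ x, (lam : ↥(P : Subgroup G) → ℂ) (x ^ 3) = (lam : ↥(P : Subgroup G) → ℂ) x) :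
    ∃ χ : IrrCharacter G, χ ∈ principalBlock M G ∧ Odd (charDegree (χ : G → ℂ)) ∧
      (∀ g : G, (χ : G → ℂ) (g ^ k) = (χ : G → ℂ) g) ∧
      Odd (homMult (P : Subgroup G).subtype χ lam) := by
  classical
  haveI : Fact (Nat.Prime 2) := ⟨Nat.prime_two⟩
  haveI : M.IsPrime := hM.2.1.isPrime
  letI := Fintype.ofFinite G
  letI := Fintype.ofFinite ↥(P : Subgroup G)
  have hkc := coprime_card h₁ h₂
  -- the twist as a permutation
  set τ : IrrCharacter G → IrrCharacter G := fun χ =>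
    ⟨fun g => (χ : G → ℂ) (g ^ k), OddChar.irr_twist χ.2 hkc⟩ with hτ
  have hτinj : Function.Injective τ := fun a b h => by
    refine Subtype.ext (funext fun g => ?_)
    obtain ⟨x, rfl⟩ := (powCoprime hkc.symm).surjective g
    exact congrFun (congrArg Subtype.val h) x
  set σ : Equiv.Perm (IrrCharacter G) :=
    Equiv.ofBijective τ ⟨hτinj, Finite.surjective_of_injective hτinj⟩ with hσ
  have hσapply : ∀ χ g, ((σ χ : IrrCharacter G) : G → ℂ) g = (χ : G → ℂ) (g ^ k) := fun _ _ => rfl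
  have hσpow : ∀ (m : ℕ) χ g, (((σ ^ m) χ : IrrCharacter G) : G → ℂ) g =
      (χ : G → ℂ) (g ^ k ^ m) := by
    intro m
    induction m with
    | zero => intro χ g; simp
    | succ m ih =>
      intro χ g
      rw [pow_succ, Equiv.Perm.mul_apply, ih, hσapply, ← pow_mul, ← pow_succ]
  have hσord : σ ^ 2 ^ (Nat.card G).factorization 2 = 1 := by
    refine Equiv.ext fun χ => Subtype.ext (funext fun g => ?_)
    rw [hσpow, iterate_pow_eq h₁ h₂]
    rfl
  have hA : IsPGroup 2 (Subgroup.zpowers σ) := fun x => ⟨_, Subtype.ext (by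
    obtain ⟨i, hi⟩ := Subgroup.mem_zpowers_iff.mp x.2
    rw [Subgroup.coe_pow, ← hi, Subgroup.coe_one, ← zpow_natCast, ← zpow_mul, mul_comm, zpow_mul,
      zpow_natCast, hσord, one_zpow])⟩
  -- invariance of the block, of degrees and multiplicities
  have hdeg : ∀ χ, charDegree ((σ χ : IrrCharacter G) : G → ℂ) = charDegree (χ : G → ℂ) :=
    fun χ => by simp [charDegree, hσapply]
  have hblock : ∀ χ, σ χ ∈ principalBlock M G ↔ χ ∈ principalBlock M G := fun χ => by
    have hr : Brauer.regSum 2 ((σ χ : IrrCharacter G) : G → ℂ) (fun _ => (1 : ℂ)) =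
        Brauer.regSum 2 (χ : G → ℂ) (fun _ => (1 : ℂ)) :=
      Finset.sum_congr rfl fun x hx => by
        rw [hσapply, h₂ x (Nat.odd_iff.mpr (Nat.two_dvd_ne_zero.mp (Finset.mem_filter.mp hx).2))]
    rw [Brauer.mem_principalBlock_iff_regSum hM, Brauer.mem_principalBlock_iff_regSum hM, hr,
      hσapply, one_pow]
  have hmultinv : ∀ χ, homMult (P : Subgroup G).subtype (σ χ) lam = homMult (P : Subgroup G).subtype χ lam := fun χ => by
    refine homMult_eq_of_classInner ?_
    rw [← classInner_comp_eq_homMult]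
    unfold classInner
    congr 1
    have h3 : (Nat.card (P : Subgroup G)).Coprime 3 := by
      obtain ⟨j, hj⟩ := IsPGroup.iff_card.mp P.isPGroup'
      rw [hj]
      exact Nat.Coprime.pow_left j (by norm_num)
    refine Fintype.sum_equiv (powCoprime h3) _ _ fun x => ?_
    show (χ : G → ℂ) ((x : G) ^ k) * conj _ = (χ : G → ℂ) ((x ^ 3 : (P : Subgroup G)) : G) * conj _
    rw [Subgroup.coe_pow]
    congr 2
    · obtain ⟨j, hj⟩ := IsPGroup.iff_orderOf.mp P.isPGroup' x
      rw [h₁ (x : G) ⟨j, by rw [Subgroup.orderOf_coe, hj]⟩]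
    · exact (hlam3 x).symm
  let f : IrrCharacter G → ℂ := fun χ =>
    if χ ∈ principalBlock M G then ((charDegree (χ : G → ℂ) * homMult (P : Subgroup G).subtype χ lam : ℕ) : ℂ)
    else 0
  have hfσ : ∀ χ, f (σ χ) = f χ := fun χ => by simp only [f, hblock χ, hdeg χ, hmultinv χ]
  have hf : ∀ (a : Subgroup.zpowers σ) χ, f ((Subgroup.zpowers σ).subtype a χ) = f χ := by
    rintro ⟨a, ha⟩ χ
    obtain ⟨i, rfl⟩ := Subgroup.mem_zpowers_iff.mp ha
    show f ((σ ^ i) χ) = f χ
    clear ha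
    induction i using Int.induction_on generalizing χ with
    | zero => simp
    | succ i ih => rw [zpow_add_one, Equiv.Perm.mul_apply, ih, hfσ]
    | pred i ih =>
      rw [zpow_sub_one, Equiv.Perm.mul_apply, ih, ← hfσ (σ⁻¹ χ), (show σ (σ⁻¹ χ) = χ from Equiv.apply_symm_apply σ χ)]
  -- the weighted multiplicity sum is odd
  have hB : IsPBlock M (principalBlock M G) := ⟨trivialIrr G, rfl⟩
  set S := Finset.univ.filter fun θ : IrrCharacter G => θ ∈ principalBlock M G with hS
  set T := ∑ θ ∈ S, charDegree (θ : G → ℂ) ^ 2 with hTdef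
  have hTf : T.factorization 2 = (Nat.card (P : Subgroup G)).factorization 2 := by
    rw [hTdef, hS, BlockVal.factorization_sum_sq hM hB (BlockNilp.trivial_mem hM) (by
      rw [BlockNilp.height_zero_principal_iff hM (BlockNilp.trivial_mem hM),
        BlockNilp.charDegree_trivial]
      exact Nat.prime_two.not_dvd_one), BlockNilp.charDegree_trivial, Nat.factorization_one,
      Finsupp.zero_apply, add_zero, ← (P : Subgroup G).card_mul_index, Nat.factorization_mul Nat.card_pos.ne'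
        Subgroup.index_ne_zero_of_finite, Finsupp.add_apply,
      Nat.factorization_eq_zero_of_not_dvd P.not_dvd_index, add_zero]
  have hvan : ∀ d : (P : Subgroup G), d ≠ 1 → ∑ θ ∈ S, (θ : G → ℂ) 1 * (θ : G → ℂ) (d : G) = 0 := by
    intro d hd
    have hord : 2 ∣ orderOf (d : G) := by
      obtain ⟨i, hi⟩ := IsPGroup.iff_orderOf.mp P.isPGroup' d
      rw [Subgroup.orderOf_coe, hi]
      refine dvd_pow_self 2 fun h0 => hd ?_
      rw [h0, pow_zero, orderOf_eq_one_iff] at hi
      exact hi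
    have h0 := Brauer.blockCoeff_eq_zero_of_integral hM (principalBlock M G)
      (Block.blockCoeff_memLocalRing hB) hord
    rw [Block.blockCoeff_eq_sum, mul_eq_zero] at h0
    have h1 := congrArg conj (h0.resolve_left
      (inv_ne_zero (Nat.cast_ne_zero.mpr Nat.card_pos.ne')))
    rw [map_zero, map_sum] at h1
    refine Eq.trans (Finset.sum_congr rfl fun θ _ => ?_) h1
    rw [map_mul, Complex.conj_conj, (BlockVal.irr_one_eq_charDegree θ).1, Complex.conj_natCast]
  have hmult : (Nat.card (P : Subgroup G) : ℂ) *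
      (∑ θ ∈ S, (charDegree (θ : G → ℂ) : ℂ) * (homMult (P : Subgroup G).subtype θ lam : ℂ)) = (T : ℂ) := by
    calc _ = ∑ θ ∈ S, (θ : G → ℂ) 1 * ∑ d : (P : Subgroup G), (θ : G → ℂ) (d : G) * conj ((lam : ↥(P : Subgroup G) → ℂ) d) := by
          rw [Finset.mul_sum]
          refine Finset.sum_congr rfl fun θ _ => ?_
          rw [← classInner_comp_eq_homMult, sum_mul_conj_eq_card_mul_classInner,
            (BlockVal.irr_one_eq_charDegree θ).1]
          simp only [Subgroup.coe_subtype]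
          ring
      _ = ∑ d : (P : Subgroup G), conj ((lam : ↥(P : Subgroup G) → ℂ) d) * ∑ θ ∈ S, (θ : G → ℂ) 1 * (θ : G → ℂ) (d : G) := by
          simp only [Finset.mul_sum]
          rw [Finset.sum_comm]
          exact Finset.sum_congr rfl fun d _ => Finset.sum_congr rfl fun θ _ => by ring
      _ = (T : ℂ) := by
          rw [Finset.sum_eq_single (1 : (P : Subgroup G))]
          · rw [hlam1, map_one, one_mul, hTdef]
            push_cast
            refine Finset.sum_congr rfl fun θ _ => ?_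
            rw [pow_two, ← (BlockVal.irr_one_eq_charDegree θ).1]
          · intro d _ hd
            rw [hvan d hd, mul_zero]
          · exact fun h => absurd (Finset.mem_univ _) h
  have hnot : ¬ 2 ∣ ∑ θ ∈ S, charDegree (θ : G → ℂ) * homMult (P : Subgroup G).subtype θ lam := by
    intro hd
    have hT' : Nat.card (P : Subgroup G) * (∑ θ ∈ S, charDegree (θ : G → ℂ) * homMult (P : Subgroup G).subtype θ lam) = T := by
      exact_mod_cast hmult
    have hT0 : T ≠ 0 := by
      refine fun h => ?_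
      have := (Finset.sum_eq_zero_iff.mp h) (trivialIrr G) (by simp [S, BlockNilp.trivial_mem hM])
      rw [BlockNilp.charDegree_trivial] at this
      simp at this
    have hs0 : (∑ θ ∈ S, charDegree (θ : G → ℂ) * homMult (P : Subgroup G).subtype θ lam) ≠ 0 :=
      fun h0 => hT0 (by rw [← hT', h0, mul_zero])
    have h2 : (Nat.card (P : Subgroup G)).factorization 2 + 1 ≤ T.factorization 2 := by
      rw [← hT', Nat.factorization_mul Nat.card_pos.ne' hs0, Finsupp.add_apply]
      have := Nat.prime_two.factorization_pos_of_dvd hs0 hd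
      omega
    omega
  have hsum := sum_congr_fixed hA (Subgroup.zpowers σ).subtype f
    (fun θ => by simp only [f]; split_ifs <;> [exact isIntegral_of_nat _; exact isIntegral_zero]) hf
  by_contra hcon
  refine hnot (Congr.nat_dvd (p := 2) ?_)
  refine (Congr.of_eq ?_).trans (hsum.trans ((Congr.sum _ fun θ hθ => ?_).trans
    (Congr.of_eq Finset.sum_const_zero)))
  · rw [hS, Nat.cast_sum, Finset.sum_filter]
  · simp only [f]
    split_ifs with hm
    · refine (Congr.of_eq (mul_one _).symm).trans (Congr.natMul_zero isIntegral_one ?_)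
      by_contra hodd
      refine hcon ⟨θ, hm, ?_, fun g => ?_, ?_⟩
      · exact Nat.odd_iff.mpr (Nat.two_dvd_ne_zero.mp fun h => hodd (h.mul_right _))
      · have := (Finset.mem_filter.mp hθ).2 ⟨σ, Subgroup.mem_zpowers σ⟩
        exact congrFun (congrArg Subtype.val (this : σ θ = θ)) g
      · exact Nat.odd_iff.mpr (Nat.two_dvd_ne_zero.mp fun h => hodd (h.mul_left _))
    · exact Congr.refl _

theorem hasNormalPComplement_of_fixed_linear (hM : IsPModular 2 M) {k : ℕ}
    (h₁ : ∀ g : G, (∃ j : ℕ, orderOf g = 2 ^ j) → g ^ k = g ^ 3)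
    (h₂ : ∀ g : G, Odd (orderOf g) → g ^ k = g)
    (hlin : ∀ χ ∈ principalBlock M G, Odd (charDegree (χ : G → ℂ)) →
      (∀ g : G, (χ : G → ℂ) (g ^ k) = (χ : G → ℂ) g) → charDegree (χ : G → ℂ) = 1) :
    Cfsg.HasNormalPComplement 2 G := by
  classical
  haveI : Fact (Nat.Prime 2) := ⟨Nat.prime_two⟩
  obtain ⟨P⟩ : Nonempty (Sylow 2 G) := inferInstance
  set A := Cfsg.pResidual 2 G with hA
  haveI : A.Normal := inferInstance
  suffices h : A ⊓ (P : Subgroup G) ≤ (frattini P).map (P : Subgroup G).subtype by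
    have h1 := Transfer.hasNormalPComplement_of_inf_le_frattini P A h
    rw [Transfer.hasNormalPComplement_iff] at h1 ⊢
    rwa [hA, Transfer.pResidual_pResidual, Subgroup.card_top] at h1
  rintro x ⟨hxA, hxP⟩
  refine ⟨⟨x, hxP⟩, ?_, rfl⟩
  by_contra hxf
  obtain ⟨N, hN, hxN⟩ : ∃ N : Subgroup ↥(P : Subgroup G), IsCoatom N ∧ (⟨x, hxP⟩ : P) ∉ N := by
    by_contra h
    push Not at h
    exact hxf (Subgroup.mem_iInf.mpr fun N => Subgroup.mem_iInf.mpr fun hN => h N hN)
  haveI := PGroup.normal_of_isCoatom P.isPGroup' hN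
  have hidx : N.index = 2 := PGroup.index_of_isCoatom P.isPGroup' hN
  obtain ⟨l, hl⟩ : ∃ l : ↥(P : Subgroup G) →* ℂˣ, ∀ y, l y = if y ∈ N then 1 else -1 := by
    refine ⟨{ toFun := fun y => if y ∈ N then 1 else -1
              map_one' := by simp [N.one_mem]
              map_mul' := fun a b => ?_ }, fun y => rfl⟩
    have := Subgroup.mul_mem_iff_of_index_two hidx (a := a) (b := b)
    by_cases ha : a ∈ N <;> by_cases hb : b ∈ N <;> simp [ha, hb, this]
  set lam : IrrCharacter ↥(P : Subgroup G) :=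
    ⟨fun y => (l y : ℂ), isIrrCharacter_monoidHom l⟩ with hlam
  obtain ⟨χ, hB, hodd, hfix, hmult⟩ := exists_fixed_over hM P h₁ h₂ lam
    (by simp [hlam])
    (fun y => by
      show (l (y ^ 3) : ℂ) = (l y : ℂ)
      rw [map_pow, hl]
      split_ifs <;> norm_num)
  have hd1 : (χ : G → ℂ) 1 = 1 := by
    rw [(BlockVal.irr_one_eq_charDegree χ).1, hlin χ hB hodd hfix, Nat.cast_one]
  obtain ⟨μ, hμ⟩ := exists_monoidHom_of_degree_one (isCharacter_of_irr χ.2) hd1
  -- the restriction of `χ` is `lam`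
  have hres : ∀ y : ↥(P : Subgroup G), (μ y : ℂ) = (l y : ℂ) := fun y => by
    letI := Fintype.ofFinite ↥(P : Subgroup G)
    have hirr : IsIrrCharacter ↥(P : Subgroup G) (fun y => (χ : G → ℂ) (y : G)) := by
      have : (fun y : ↥(P : Subgroup G) => (χ : G → ℂ) (y : G)) =
          fun y => ((μ.comp (P : Subgroup G).subtype) y : ℂ) := funext fun y => hμ _
      rw [this]; exact isIrrCharacter_monoidHom _
    by_contra hne
    have h0 := classInner_comp_eq_homMult (P : Subgroup G).subtype χ lam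
    rw [Subgroup.coe_subtype, classInner_irr_ne hirr lam.2 (fun e => hne (by
      rw [← hμ]; exact congrFun e y))] at h0
    rw [Nat.cast_eq_zero.mp h0.symm] at hmult
    exact Nat.not_odd_zero hmult
  set n := (Nat.card G) / 2 ^ (Nat.card G).factorization 2 with hn
  have hnodd : Odd n := Nat.odd_iff.mpr (Nat.two_dvd_ne_zero.mp
    (by rw [hn]; exact Nat.not_dvd_ordCompl Nat.prime_two Nat.card_pos.ne'))
  have hle : A ≤ (μ ^ n).ker := by
    rw [hA, Cfsg.pResidual, Subgroup.closure_le]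
    intro g hg
    show μ g ^ n = 1
    rw [← map_pow]
    have : g ^ n = 1 := by
      rw [← orderOf_dvd_iff_pow_eq_one]
      refine (Nat.Coprime.dvd_mul_left (n := n)
        ((hg : Nat.Coprime (orderOf g) 2).pow_right ((Nat.card G).factorization 2))).mp ?_
      rw [hn, Nat.ordProj_mul_ordCompl_eq_self]
      exact orderOf_dvd_natCard g
    rw [this, map_one]
  have h1 : μ x ^ n = 1 := hle hxA
  have h2 : μ x = -1 := Units.ext (by
    rw [show x = ((⟨x, hxP⟩ : P) : G) from rfl, hres, hl, if_neg hxN])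
  rw [h2, hnodd.neg_one_pow] at h1
  have := congrArg Units.val h1
  norm_num at this

end Cfsg.Agent.SigmaBlock
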